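import Mathlib

/-!
# Odd orbits on seven points, and an element of order 7 in the automizer of `E₈`
-/

set_option autoImplicit false

namespace Cfsg.Agent.Lib.Helper37.JR

theorem orbit_seven {Γ α : Type*} [Group Γ] [MulAction Γ α] (T : Set α) (hT : T.ncard = 7)
    (hinv : ∀ g : Γ, ∀ x ∈ T, g • x ∈ T)
    (hodd : ∀ x ∈ T, Odd (MulAction.orbit Γ x).ncard)
    (hne : ∀ x ∈ T, (MulAction.orbit Γ x).ncard ≠ 1)
    (x : α) (hx : x ∈ T) : (MulAction.orbit Γ x).ncard = 7 := by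
  have hfin : T.Finite := Set.finite_of_ncard_ne_zero (by rw [hT]; norm_num)
  have hsub : ∀ y ∈ T, MulAction.orbit Γ y ⊆ T := by
    rintro y hy _ ⟨g, rfl⟩
    exact hinv g y hy
  have h3 : ∀ y ∈ T, 3 ≤ (MulAction.orbit Γ y).ncard := by
    intro y hy
    obtain ⟨k, hk⟩ := hodd y hy
    have := hne y hy
    omega
  have hdisj : ∀ y z : α, z ∉ MulAction.orbit Γ y → Disjoint (MulAction.orbit Γ y) (MulAction.orbit Γ z) := by
    intro y z hz
    rw [Set.disjoint_left]
    intro w hw1 hw2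
    apply hz
    rw [← MulAction.orbit_eq_iff] at hw1 hw2
    rw [← hw1, hw2]
    exact MulAction.mem_orbit_self z
  by_contra h7
  have hle : (MulAction.orbit Γ x).ncard ≤ 7 := hT ▸ Set.ncard_le_ncard (hsub x hx) hfin
  have hlt : (MulAction.orbit Γ x).ncard < T.ncard := by rw [hT]; omega
  obtain ⟨y, hyT, hy⟩ := Set.exists_mem_notMem_of_ncard_lt_ncard hlt ((hfin.subset (hsub x hx)))
  have hd1 := hdisj x y hy
  have hU : (MulAction.orbit Γ x ∪ MulAction.orbit Γ y).ncard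
      = (MulAction.orbit Γ x).ncard + (MulAction.orbit Γ y).ncard :=
    Set.ncard_union_eq hd1 (hfin.subset (hsub x hx)) (hfin.subset (hsub y hyT))
  have hUsub : MulAction.orbit Γ x ∪ MulAction.orbit Γ y ⊆ T := Set.union_subset (hsub x hx) (hsub y hyT)
  have hUle : (MulAction.orbit Γ x ∪ MulAction.orbit Γ y).ncard ≤ 7 := hT ▸ Set.ncard_le_ncard hUsub hfin
  obtain ⟨a, ha⟩ := hodd x hx
  obtain ⟨b, hb⟩ := hodd y hyT
  have hlt2 : (MulAction.orbit Γ x ∪ MulAction.orbit Γ y).ncard < T.ncard := by rw [hT]; omega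
  obtain ⟨z, hzT, hz⟩ := Set.exists_mem_notMem_of_ncard_lt_ncard hlt2 (hfin.subset hUsub)
  have hd2 : Disjoint (MulAction.orbit Γ x ∪ MulAction.orbit Γ y) (MulAction.orbit Γ z) := by
    rw [Set.disjoint_union_left]
    exact ⟨hdisj x z (fun h => hz (Or.inl h)), hdisj y z (fun h => hz (Or.inr h))⟩
  have hW := Set.ncard_union_eq hd2 (hfin.subset hUsub) (hfin.subset (hsub z hzT))
  have hWle : ((MulAction.orbit Γ x ∪ MulAction.orbit Γ y) ∪ MulAction.orbit Γ z).ncard ≤ 7 :=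
    hT ▸ Set.ncard_le_ncard (Set.union_subset hUsub (hsub z hzT)) hfin
  have := h3 x hx
  have := h3 y hyT
  have := h3 z hzT
  omega

theorem exists_seven {G : Type*} [Group G] [Finite G] (S : Sylow 2 G)
    (h8 : Nat.card (S : Subgroup G) = 8)
    (hab : ∀ x ∈ (S : Subgroup G), ∀ y ∈ (S : Subgroup G), x * y = y * x)
    (hfix : ∀ s ∈ (S : Subgroup G),
      (∀ n ∈ Subgroup.normalizer ((S : Subgroup G) : Set G), n * s * n⁻¹ = s) → s = 1) :
    ∃ n : G, (∀ x ∈ (S : Subgroup G), n * x * n⁻¹ ∈ (S : Subgroup G)) ∧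
      (∀ x ∈ (S : Subgroup G), n ^ 7 * x * (n ^ 7)⁻¹ = x) ∧
      ∃ s₀ ∈ (S : Subgroup G), n * s₀ * n⁻¹ ≠ s₀ := by
  set N : Subgroup G := Subgroup.normalizer ((S : Subgroup G) : Set G) with hN
  have hSN : (S : Subgroup G) ≤ N := Subgroup.le_normalizer
  let act : MulAction ↥N G := MulAction.compHom G (MulAut.conj.comp N.subtype)
  have smul_def : ∀ (n : ↥N) (x : G), n • x = (n : G) * x * (n : G)⁻¹ := fun _ _ => rfl
  have hnorm : ∀ (n : ↥N), ∀ x ∈ (S : Subgroup G), (n : G) * x * (n : G)⁻¹ ∈ (S : Subgroup G) :=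
    fun n x hx => (Subgroup.mem_normalizer_iff.1 n.2 x).1 hx
  let T : Set G := ((S : Subgroup G) : Set G) \ {1}
  have hT : T.ncard = 7 := by
    rw [Set.ncard_sdiff_singleton_of_mem (S : Subgroup G).one_mem, ← _root_.Nat.card_coe_set_eq]
    have : Nat.card ((S : Subgroup G) : Set G) = 8 := h8
    rw [this]
  have hinv : ∀ g : ↥N, ∀ x ∈ T, g • x ∈ T := by
    rintro g x ⟨hx, hx1⟩
    refine ⟨hnorm g x hx, ?_⟩
    intro h
    exact hx1 (conj_eq_one_iff.1 h)
  have hstab : ∀ x ∈ T, (S : Subgroup G).subgroupOf N ≤ MulAction.stabilizer ↥N x := by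
    rintro x ⟨hx, -⟩ s hs
    rw [MulAction.mem_stabilizer_iff, smul_def, hab _ (Subgroup.mem_subgroupOf.1 hs) _ hx,
      mul_inv_cancel_right]
  have hodd : ∀ x ∈ T, Odd (MulAction.orbit ↥N x).ncard := by
    intro x hx
    rw [← MulAction.index_stabilizer, ← Nat.not_even_iff_odd, even_iff_two_dvd]
    intro h2
    have h3 := h2.trans (Subgroup.index_dvd_of_le (hstab x hx))
    have h4 : ((S : Subgroup G).subgroupOf N).index ∣ (S : Subgroup G).index :=
      Dvd.intro _ (Subgroup.relIndex_mul_index hSN)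
    exact S.not_dvd_index (h3.trans h4)
  have hne : ∀ x ∈ T, (MulAction.orbit ↥N x).ncard ≠ 1 := by
    rintro x ⟨hx, hx1⟩ h1
    obtain ⟨a, ha⟩ := Set.ncard_eq_one.1 h1
    have hxa : x = a := by
      have := MulAction.mem_orbit_self (M := ↥N) x
      rw [ha] at this
      exact this
    apply hx1
    apply hfix x hx
    intro n hn
    have : (⟨n, hn⟩ : ↥N) • x ∈ MulAction.orbit ↥N x := MulAction.mem_orbit _ _
    rw [ha, ← hxa] at this
    exact this
  obtain ⟨t, ht⟩ : T.Nonempty := by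
    rw [← Set.ncard_pos (Set.finite_of_ncard_ne_zero (by rw [hT]; norm_num)), hT]
    norm_num
  have h7 := orbit_seven T hT hinv hodd hne t ht
  rw [← MulAction.index_stabilizer] at h7
  let K : Subgroup ↥N := (Subgroup.centralizer ((S : Subgroup G) : Set G)).subgroupOf N
  have hKmem : ∀ k : ↥N, k ∈ K ↔ ∀ x ∈ (S : Subgroup G), (k : G) * x * (k : G)⁻¹ = x := by
    intro k
    rw [Subgroup.mem_subgroupOf, Subgroup.mem_centralizer_iff]
    constructor
    · intro h x hx
      rw [← h x hx, mul_inv_cancel_right]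
    · intro h x hx
      exact (mul_inv_eq_iff_eq_mul.1 (h x hx)).symm
  have hKn : K.Normal := by
    constructor
    intro k hk n
    rw [hKmem] at hk ⊢
    intro x hx
    have h1 := hk _ (hnorm n⁻¹ x hx)
    simp only [Subgroup.coe_mul, Subgroup.coe_inv, inv_inv] at h1 ⊢
    calc (n : G) * k * (n : G)⁻¹ * x * ((n : G) * k * (n : G)⁻¹)⁻¹
        = n * (k * ((n : G)⁻¹ * x * n) * (k : G)⁻¹) * (n : G)⁻¹ := by group
      _ = x := by rw [h1]; group
  have hKle : K ≤ MulAction.stabilizer ↥N t := by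
    intro k hk
    rw [MulAction.mem_stabilizer_iff, smul_def]
    exact (hKmem k).1 hk t ht.1
  have hdvd : 7 ∣ Nat.card (↥N ⧸ K) := by
    rw [← Subgroup.index_eq_card, ← h7]
    exact Subgroup.index_dvd_of_le hKle
  have : Fact (Nat.Prime 7) := ⟨by norm_num⟩
  obtain ⟨q, hq⟩ := exists_prime_orderOf_dvd_card' (G := ↥N ⧸ K) 7 hdvd
  obtain ⟨n, rfl⟩ := QuotientGroup.mk_surjective q
  have hn7 : n ^ 7 ∈ K := by
    rw [← QuotientGroup.eq_one_iff, QuotientGroup.mk_pow, ← hq]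
    exact pow_orderOf_eq_one _
  have hn1 : n ∉ K := by
    intro h
    rw [← QuotientGroup.eq_one_iff] at h
    rw [h, orderOf_one] at hq
    norm_num at hq
  refine ⟨n, hnorm n, ?_, ?_⟩
  · have := (hKmem _).1 hn7
    simpa using this
  · rw [hKmem] at hn1
    push Not at hn1
    exact hn1

end Cfsg.Agent.Lib.Helper37.JR
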