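import Cfsg.Agent.S0261
import Cfsg.Agent.S0276

/-!
# `PSL₂(q)`, `q` odd, with abelian `2`-subgroups: `q ≡ ±3 (mod 8)`
-/

set_option autoImplicit false

namespace Cfsg.Agent.Lib.Helper37.JR

theorem center_sq {F : Type*} [Field F] (z : Matrix.SpecialLinearGroup (Fin 2) F)
    (hz : z ∈ Subgroup.center (Matrix.SpecialLinearGroup (Fin 2) F)) : z * z = 1 := by
  obtain ⟨r, hr, hrz⟩ := Matrix.SpecialLinearGroup.mem_center_iff.1 hz
  apply Subtype.ext
  rw [Matrix.SpecialLinearGroup.coe_mul, ← hrz, ← map_mul, ← pow_two]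
  rw [Fintype.card_fin] at hr
  rw [hr, map_one]
  rfl

theorem pow_four_of_rel {M : Type*} [Group M] (a x z : M) (hzc : ∀ g, g * z = z * g)
    (hzz : z * z = 1) (hrel : a * x * a = x) (h1 : a * x = x * a * z) : a ^ 4 = 1 := by
  have h2 : a * a * z = 1 := by
    have : x * (a * a * z) = x * 1 := by
      calc x * (a * a * z) = x * a * (a * z) := by group
        _ = x * a * (z * a) := by rw [hzc]
        _ = (x * a * z) * a := by group
        _ = x * 1 := by rw [← h1, hrel, mul_one]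
    exact mul_left_cancel this
  have h3 : a * a * z * (a * a * z) = a ^ 4 * (z * z) := by
    calc a * a * z * (a * a * z) = a * a * (z * (a * a)) * z := by simp only [mul_assoc]
      _ = a * a * ((a * a) * z) * z := by rw [hzc (a * a)]
      _ = a ^ 4 * (z * z) := by simp only [pow_succ, pow_zero, one_mul, mul_assoc]
  rw [h2, hzz, mul_one, mul_one] at h3
  exact h3.symm

theorem mod_eight_of_two_ab {F : Type*} [Field F] [Fintype F] (hF : Odd (Fintype.card F))
    (h : ∀ Q : Subgroup (Matrix.ProjectiveSpecialLinearGroup (Fin 2) F), IsPGroup 2 Q →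
      ∀ x ∈ Q, ∀ y ∈ Q, x * y = y * x) :
    Fintype.card F % 8 = 3 ∨ Fintype.card F % 8 = 5 := by
  by_contra hcon
  have hq : Fintype.card F % 8 = 1 ∨ Fintype.card F % 8 = 7 := by
    obtain ⟨k, hk⟩ := hF
    omega
  have h16 : 2 ^ 4 ∣ Nat.card (Matrix.SpecialLinearGroup (Fin 2) F) := by
    rw [Cfsg.Agent.Lib.Helper5.card_SL2]
    apply Dvd.dvd.mul_left
    have h2 : Fintype.card F ^ 2 - 1 = (Fintype.card F - 1) * (Fintype.card F + 1) := by
      have := Nat.sq_sub_sq (Fintype.card F) 1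
      rw [one_pow] at this
      rw [this, mul_comm]
    rw [h2]
    rcases hq with h1 | h1
    · obtain ⟨t, ht⟩ : ∃ t, Fintype.card F = 8 * t + 1 := ⟨Fintype.card F / 8, by omega⟩
      rw [ht]
      exact ⟨t * (4 * t + 1), by simp only [Nat.add_sub_cancel]; ring⟩
    · obtain ⟨t, ht⟩ : ∃ t, Fintype.card F = 8 * t + 7 := ⟨Fintype.card F / 8, by omega⟩
      rw [ht]
      exact ⟨(4 * t + 3) * (t + 1), by
        rw [show 8 * t + 7 - 1 = 2 * (4 * t + 3) by omega]; ring⟩
  obtain ⟨P⟩ : Nonempty (Sylow 2 (Matrix.SpecialLinearGroup (Fin 2) F)) := inferInstance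
  obtain ⟨k, hk1, ⟨e⟩⟩ := Cfsg.Agent.S0261.result hF P
  have hne : NeZero (2 ^ k) := ⟨by positivity⟩
  have hcard : Nat.card (P : Subgroup (Matrix.SpecialLinearGroup (Fin 2) F)) = 4 * 2 ^ k := by
    rw [Nat.card_congr e.toEquiv, Nat.card_eq_fintype_card, QuaternionGroup.card]
  have hk2 : 2 ≤ k := by
    have h1 := P.card_eq_multiplicity
    have h2 : 4 ≤ (Nat.card (Matrix.SpecialLinearGroup (Fin 2) F)).factorization 2 :=
      (Nat.Prime.pow_dvd_iff_le_factorization Nat.prime_two Nat.card_pos.ne').1 h16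
    rw [hcard, show 4 * 2 ^ k = 2 ^ (k + 2) by ring] at h1
    have h3 := Nat.pow_right_injective (le_refl 2) h1
    omega
  -- the two generators
  set a : (P : Subgroup (Matrix.SpecialLinearGroup (Fin 2) F)) := e.symm (QuaternionGroup.a 1) with ha
  set x : (P : Subgroup (Matrix.SpecialLinearGroup (Fin 2) F)) := e.symm (QuaternionGroup.xa 0) with hx
  have hrel : a * x * a = x := by
    rw [ha, hx, ← map_mul, ← map_mul]
    congr 1
    simp
  have ha4 : a ^ 4 ≠ 1 := by
    intro h4
    rw [ha, ← map_pow, QuaternionGroup.a_one_pow] at h4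
    have h5 : (QuaternionGroup.a ((4 : ℕ) : ZMod (2 * 2 ^ k)) : QuaternionGroup (2 ^ k)) = 1 := by
      simpa using h4
    rw [QuaternionGroup.one_def] at h5
    have h6 : ((4 : ℕ) : ZMod (2 * 2 ^ k)) = 0 := by
      injection h5
    rw [ZMod.natCast_eq_zero_iff] at h6
    have h7 : 2 * 2 ^ 2 ≤ 2 * 2 ^ k := by
      apply Nat.mul_le_mul_left
      exact Nat.pow_le_pow_right (by norm_num) hk2
    have := Nat.le_of_dvd (by norm_num) h6
    omega
  have hcomm := h ((P : Subgroup (Matrix.SpecialLinearGroup (Fin 2) F)).map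
    (QuotientGroup.mk' (Subgroup.center (Matrix.SpecialLinearGroup (Fin 2) F))))
    (P.isPGroup'.map _) _ (Subgroup.mem_map_of_mem _ x.2) _ (Subgroup.mem_map_of_mem _ a.2)
  rw [← map_mul, ← map_mul] at hcomm
  have hz := QuotientGroup.eq.1 hcomm
  set a' : Matrix.SpecialLinearGroup (Fin 2) F := a.1 with ha'
  set x' : Matrix.SpecialLinearGroup (Fin 2) F := x.1 with hx'
  set z := (x' * a')⁻¹ * (a' * x') with hzdef
  have hzz := center_sq z hz
  have hzc : ∀ g, g * z = z * g := Subgroup.mem_center_iff.1 hz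
  have hrel' : a' * x' * a' = x' := congrArg Subtype.val hrel
  have h1 : a' * x' = x' * a' * z := by rw [hzdef, mul_inv_cancel_left]
  apply ha4
  apply Subtype.ext
  exact pow_four_of_rel a' x' z hzc hzz hrel' h1

end Cfsg.Agent.Lib.Helper37.JR
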